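import Mathlib

/-!
# S4933, box H2: roots of a polynomial in an irreducible commuting set of linear maps (helper637)
-/

set_option autoImplicit false

open Polynomial

namespace Cfsg.Agent.H637.HT

universe u v

variable {K : Type u} [Field K] {W : Type v} [AddCommGroup W] [Module K W]

/-- an irreducible commuting set of linear maps contains at most `deg f` roots of `f` -/
theorem card_roots_le [Nontrivial W] (A : Set (Module.End K W)) (hcomm : ∀ a ∈ A, ∀ b ∈ A, a * b = b * a)
    (hirr : ∀ U : Submodule K W, (∀ a ∈ A, ∀ u ∈ U, a u ∈ U) → U = ⊥ ∨ U = ⊤) (f : K[X]) (hf : f ≠ 0) :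
    (A ∩ {a | aeval a f = 0}).Finite ∧ (A ∩ {a | aeval a f = 0}).ncard ≤ f.natDegree := by
  classical
  let R := Algebra.adjoin K A
  have hAR : ∀ a ∈ A, a ∈ R := fun a ha => Algebra.subset_adjoin ha
  have hRc : ∀ r ∈ R, ∀ s ∈ R, r * s = s * r := by
    intro r hr s hs
    have h1 : ∀ a ∈ A, ∀ r ∈ R, r * a = a * r := by
      intro a ha r hr
      induction hr using Algebra.adjoin_induction with
      | mem x hx => exact hcomm x hx a ha
      | algebraMap k => exact (Algebra.commutes k a)
      | add x y _ _ hx hy => rw [add_mul, mul_add, hx, hy]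
      | mul x y _ _ hx hy => rw [mul_assoc, hy, ← mul_assoc, hx, mul_assoc]
    induction hs using Algebra.adjoin_induction with
    | mem x hx => exact h1 x hx r hr
    | algebraMap k => exact (Algebra.commutes k r).symm
    | add x y _ _ hx hy => rw [add_mul, mul_add, hx, hy]
    | mul x y _ _ hx hy => rw [← mul_assoc, hx, mul_assoc, hy, ← mul_assoc]
  let _ : CommRing R := { (inferInstance : Ring R) with
    mul_comm := fun r s => Subtype.ext (hRc r r.2 s s.2) }
  have hnt : Nontrivial R := inferInstance
  have hinj : ∀ r ∈ R, r ≠ 0 → Function.Injective r := by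
    intro r hr h0
    have h1 : LinearMap.ker r = ⊥ ∨ LinearMap.ker r = ⊤ := by
      refine hirr _ fun a ha u hu => ?_
      rw [LinearMap.mem_ker] at hu ⊢
      have h2 := congrArg (fun t : Module.End K W => t u) (hRc r hr a (hAR a ha))
      simp only [Module.End.mul_apply] at h2
      rw [h2, hu, map_zero]
    rcases h1 with h1 | h1
    · exact LinearMap.ker_eq_bot.1 h1
    · exact absurd (LinearMap.ker_eq_top.1 h1) h0
  have hdom : IsDomain R := by
    refine @NoZeroDivisors.to_isDomain R _ hnt ⟨?_⟩
    intro r s hrs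
    by_contra hcon
    push Not at hcon
    have h1 : (r : Module.End K W) ≠ 0 := fun h => hcon.1 (Subtype.ext h)
    have h2 : (s : Module.End K W) ≠ 0 := fun h => hcon.2 (Subtype.ext h)
    apply h2
    ext w
    apply hinj r r.2 h1
    rw [LinearMap.zero_apply, map_zero]
    exact congrArg (fun t : R => (t : Module.End K W) w) hrs
  let g : R[X] := f.map (algebraMap K R)
  have hg : g ≠ 0 := by
    intro h
    apply hf
    exact Polynomial.map_injective _ (algebraMap K R).injective (by rw [Polynomial.map_zero]; exact h)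
  have hsub : A ∩ {a | aeval a f = 0} ⊆ (fun r : R => (r : Module.End K W)) '' (g.roots.toFinset : Set R) := by
    rintro a ⟨ha, hfa⟩
    refine ⟨⟨a, hAR a ha⟩, ?_, rfl⟩
    rw [Finset.mem_coe, Multiset.mem_toFinset, mem_roots hg, IsRoot.def, eval_map_algebraMap]
    apply Subtype.ext
    have h1 := Polynomial.aeval_algHom_apply (R.val) (⟨a, hAR a ha⟩ : R) f
    have h2 : (aeval a f : Module.End K W) = 0 := hfa
    show R.val (aeval (⟨a, hAR a ha⟩ : R) f) = 0
    rw [← h1]
    exact h2
  have hfin : ((fun r : R => (r : Module.End K W)) '' (g.roots.toFinset : Set R)).Finite :=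
    (Finset.finite_toSet _).image _
  refine ⟨hfin.subset hsub, (Set.ncard_le_ncard hsub hfin).trans ((Set.ncard_image_le (Finset.finite_toSet _)).trans ?_)⟩
  rw [Set.ncard_coe_finset]
  refine (Multiset.toFinset_card_le _).trans ((card_roots' g).trans ?_)
  exact Polynomial.natDegree_map_le

end Cfsg.Agent.H637.HT
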