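import Cfsg.Agent.H637.HT.Fusion
import Cfsg.Agent.H920.HT.RegDefs

/-!
# S4933, box H2, piece (C): fusion of regular elements (helper637)

`x ∈ RegE P`: at most `8 c²` elements of `RegE P` are conjugate to `x` in `G`.
-/

set_option autoImplicit false

namespace Cfsg.Agent.H637.HT

open Submodule Module Polynomial Cfsg.Agent.H324.AP Cfsg.Agent.H920.HT

universe u v

section

variable {F : Type u} [Field F] {V : Type v} [AddCommGroup V] [Module F V]
  {τ : F →+* F} {B : V → V → F} {G : Subgroup (V ≃ₗ[F] V)} {p a c : ℕ} {h : SplF τ B G}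
  {P : Subgroup (V ≃ₗ[F] V)} {D : Fin 2 → Submodule F V}

theorem exists_ne_one (H : TwoB p a c h P D) (i : Fin 2) : ∃ y ∈ triv P (h.perp (D i)), y ≠ 1 :=
  (Subgroup.ne_bot_iff_exists_ne_one.1 (H.dec.ne i)).elim fun y hy => ⟨y.1, y.2, fun e => hy (Subtype.ext e)⟩

/-- regular elements are irreducible on the blocks -/
theorem reg_irr (H : TwoB p a c h P D) {x : V ≃ₗ[F] V} (hx : x ∈ RegE P) (i : Fin 2) (U : Submodule F V)
    (hU : U ≤ D i) (hxU : ∀ u ∈ U, x u ∈ U) : U = ⊥ ∨ U = D i := by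
  obtain ⟨y, hy, hy1⟩ := exists_ne_one H i
  obtain ⟨f, hf⟩ := hx.2 y hy.1
  refine H.irr i y hy hy1 U hU fun m hm => ?_
  have h1 : y m = aeval (toE x) f m := congrArg (fun t : Module.End F V => t m) hf
  rw [h1]
  exact HT.aeval_mem (toE x) hxU f hm

/-- regular elements are nontrivial on the blocks -/
theorem reg_ne (H : TwoB p a c h P D) {x : V ≃ₗ[F] V} (hx : x ∈ RegE P) (i : Fin 2) : ∃ v ∈ D i, x v ≠ v := by
  by_contra hcon
  push Not at hcon
  obtain ⟨y, hy, hy1⟩ := exists_ne_one H i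
  obtain ⟨f, hf⟩ := hx.2 y hy.1
  have hsc : ∀ (g : F[X]), ∀ v ∈ D i, aeval (toE x) g v = g.eval 1 • v := by
    intro g v hv
    induction g using Polynomial.induction_on' with
    | add p q hp hq => rw [map_add, LinearMap.add_apply, hp, hq, eval_add, add_smul]
    | monomial m b =>
      have h1 : ∀ m : ℕ, ((toE x) ^ m) v = v := by
        intro m
        induction m with
        | zero => rfl
        | succ m ih =>
          rw [pow_succ, Module.End.mul_apply]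
          show ((toE x) ^ m) (x v) = v
          rw [hcon v hv, ih]
      rw [aeval_monomial, Module.End.mul_apply, Module.algebraMap_end_apply, h1, eval_monomial, one_pow, mul_one]
  obtain ⟨v, hv, hv0⟩ := Submodule.exists_mem_ne_zero_of_ne_bot (H.frm.minS i).ne
  have h1 : Submodule.span F {v} ≤ D i := (Submodule.span_singleton_le_iff_mem v _).2 hv
  rcases H.irr i y hy hy1 (Submodule.span F {v}) h1 (fun m hm => by
    have h2 : y m = aeval (toE x) f m := congrArg (fun t : Module.End F V => t m) hf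
    rw [h2, hsc f m (h1 hm)]
    exact Submodule.smul_mem _ _ hm) with h2 | h2
  · exact hv0 (Submodule.span_singleton_eq_bot.1 h2)
  · have h3 := H.dim i
    rw [← h2, finrank_span_singleton hv0] at h3
    omega

/-- separation of the two blocks -/
theorem reg_sep (H : TwoB p a c h P D) {x : V ≃ₗ[F] V} (hx : x ∈ RegE P) :
    ∃ f : F[X], (∀ v ∈ D 0, aeval (toE x) f v = 0) ∧ ∀ v ∈ D 1, aeval (toE x) f v = 0 → v = 0 := by
  obtain ⟨y, hy, hy1⟩ := exists_ne_one H 1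
  obtain ⟨f, hf⟩ := hx.2 y hy.1
  have h1 : ∀ v, aeval (toE x) (f - 1) v = y v - v := by
    intro v
    have h1 : y v = aeval (toE x) f v := congrArg (fun t : Module.End F V => t v) hf
    rw [map_sub, LinearMap.sub_apply, map_one, h1]
    rfl
  refine ⟨f - 1, fun v hv => ?_, ?_⟩
  · rw [h1, hy.2 v (H.dec.le 1 0 (by decide) hv), sub_self]
  · rcases zero_or_inj (toE x) (fun v hv => H.dec.inv 1 x hx.1 v hv) (fun U' h2 h3 => reg_irr H hx 1 U' h2 h3) (f - 1) with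
      h2 | h2
    · exfalso
      apply hy1
      refine equiv_ext_compl (H.dec.compl 1) (fun v hv => ?_) hy.2
      have h3 := h2 v hv
      rw [h1, sub_eq_zero] at h3
      exact h3
    · exact h2

variable [Finite V] [FiniteDimensional F V] [Fact p.Prime]

/-- **(C)**: the fusion bound -/
theorem fusion (hpF : (p : F) ≠ 0) (H : TwoB p a c h P D) {x : V ≃ₗ[F] V} (hx : x ∈ RegE P) :
    Nat.card {x' : V ≃ₗ[F] V // x' ∈ RegE P ∧ ∃ g ∈ G, g * x * g⁻¹ = x'} ≤ 8 * c ^ 2 := by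
  have hnd := nd_fix hpF h H.syl.le H.syl.isP
  have hc0 := h.isCompl_perp hnd
  have hsup : fixP P ⊔ D 0 ⊔ D 1 = ⊤ := by
    rw [eq_top_iff, ← hc0.sup_eq_top, ← H.frm.sup]
    refine sup_le (le_sup_left.trans le_sup_left) (iSup_le fun i => ?_)
    fin_cases i
    · exact le_sup_right.trans le_sup_left
    · exact le_sup_right
  have hdir : ∀ v0 ∈ fixP P, ∀ v1 ∈ D 0, ∀ v2 ∈ D 1, v0 + v1 + v2 = 0 → v0 = 0 ∧ v1 = 0 ∧ v2 = 0 := by
    intro v0 hv0 v1 hv1 v2 hv2 hsum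
    have h1 : v1 + v2 ∈ h.perp (fixP P) := Submodule.add_mem _ (H.frm.le_perp 0 hv1) (H.frm.le_perp 1 hv2)
    have h2 : v0 = -(v1 + v2) := eq_neg_of_add_eq_zero_left (by rw [← add_assoc]; exact hsum)
    have h3 : v0 ∈ fixP P ⊓ h.perp (fixP P) := ⟨hv0, by rw [h2]; exact Submodule.neg_mem _ h1⟩
    rw [hc0.inf_eq_bot, Submodule.mem_bot] at h3
    rw [h3, zero_add] at hsum
    have h4 : v1 = -v2 := eq_neg_of_add_eq_zero_left hsum
    have h5 : v1 ∈ D 0 ⊓ h.perp (D 0) := ⟨hv1, by rw [h4]; exact Submodule.neg_mem _ (H.dec.le 0 1 (by decide) hv2)⟩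
    rw [(H.dec.compl 0).inf_eq_bot, Submodule.mem_bot] at h5
    rw [h5, zero_add] at hsum
    exact ⟨h3, h5, hsum⟩
  obtain ⟨h1, h2⟩ := fusion_le (V0 := fixP P) (H.dim 0) (H.dim 1) hsup (P : Set (V ≃ₗ[F] V)) (RegE P)
    (fun x hx => hx.1) H.ab (fun x hx v hv => hv x hx) (fun x hx v hv => H.dec.inv 0 x hx v hv)
    (fun x hx v hv => H.dec.inv 1 x hx v hv) hdir (fun x hx U hU hxU => reg_irr H hx 0 U hU hxU)
    (fun x hx U hU hxU => reg_irr H hx 1 U hU hxU) (fun x hx => reg_ne H hx 0) (fun x hx => reg_ne H hx 1)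
    (fun x hx => reg_sep H hx) hx
  have h3 : {x' : V ≃ₗ[F] V | x' ∈ RegE P ∧ ∃ g ∈ G, g * x * g⁻¹ = x'} ⊆
      {x' | x' ∈ RegE P ∧ ∃ g : V ≃ₗ[F] V, g * x * g⁻¹ = x'} := by
    rintro x' ⟨h4, g, -, hg⟩
    exact ⟨h4, g, hg⟩
  have h4 : Nat.card {x' : V ≃ₗ[F] V // x' ∈ RegE P ∧ ∃ g ∈ G, g * x * g⁻¹ = x'} =
      {x' : V ≃ₗ[F] V | x' ∈ RegE P ∧ ∃ g ∈ G, g * x * g⁻¹ = x'}.ncard := Nat.card_coe_set_eq _
  rw [h4]
  refine (Set.ncard_le_ncard h3 h1).trans (h2.trans (le_of_eq ?_))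
  ring

end

end Cfsg.Agent.H637.HT
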