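import Cfsg.Agent.H637.HT.Roots

/-!
# S4933, box H2: the fusion bound (helper637)

`V = V0 + V1 + V2`, `P` a commuting set fixing `V0`, leaving `V1`, `V2` invariant; `E ⊆ P` the regular elements.
At most `2 n²` elements of `E` are conjugate in `GL(V)` to a given one, `n = dim V1 = dim V2`.
-/

set_option autoImplicit false

open Polynomial

namespace Cfsg.Agent.H637.HT

universe u v

variable {K : Type u} [Field K] {V : Type v} [AddCommGroup V] [Module K V]

theorem coe_pow_restrict (X : Module.End K V) {U : Submodule K V} (h : ∀ v ∈ U, X v ∈ U) (n : ℕ) (u : U) :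
    ((((X.restrict h : Module.End K U) ^ n) u : U) : V) = (X ^ n) (u : V) := by
  induction n generalizing u with
  | zero => rfl
  | succ n ih =>
    rw [pow_succ, pow_succ, Module.End.mul_apply, Module.End.mul_apply, ih]
    rfl

theorem coe_aeval_restrict (X : Module.End K V) {U : Submodule K V} (h : ∀ v ∈ U, X v ∈ U) (f : K[X]) (u : U) :
    ((aeval (X.restrict h : Module.End K U) f u : U) : V) = aeval X f (u : V) := by
  induction f using Polynomial.induction_on' with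
  | add p q hp hq =>
    rw [map_add, map_add, LinearMap.add_apply, LinearMap.add_apply, Submodule.coe_add, hp, hq]
  | monomial n a =>
    rw [aeval_monomial, aeval_monomial, Module.End.mul_apply, Module.End.mul_apply, Module.algebraMap_end_apply,
      Module.algebraMap_end_apply, Submodule.coe_smul, coe_pow_restrict]

theorem aeval_mem (X : Module.End K V) {U : Submodule K V} (h : ∀ v ∈ U, X v ∈ U) (f : K[X]) {u : V} (hu : u ∈ U) :
    aeval X f u ∈ U := by
  rw [← coe_aeval_restrict X h f ⟨u, hu⟩]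
  exact Subtype.coe_prop _

theorem aeval_conj (x : V ≃ₗ[K] V) (g : V ≃ₗ[K] V) (f : K[X]) (v : V) :
    aeval ((g * x * g⁻¹ : V ≃ₗ[K] V) : Module.End K V) f v = g (aeval (x : Module.End K V) f (g⁻¹ v)) := by
  have hpow : ∀ (n : ℕ) (v : V), (((g * x * g⁻¹ : V ≃ₗ[K] V) : Module.End K V) ^ n) v =
      g (((x : Module.End K V) ^ n) (g⁻¹ v)) := by
    intro n
    induction n with
    | zero =>
      intro v
      show v = g (g⁻¹ v)
      exact (g.apply_symm_apply v).symm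
    | succ n ih =>
      intro v
      rw [pow_succ, pow_succ, Module.End.mul_apply, Module.End.mul_apply, ih]
      show g (((x : Module.End K V) ^ n) (g⁻¹ (g (x (g⁻¹ v))))) = _
      have h1 : g⁻¹ (g (x (g⁻¹ v))) = x (g⁻¹ v) := g.symm_apply_apply _
      rw [h1]
      rfl
  induction f using Polynomial.induction_on' with
  | add p q hp hq => rw [map_add, map_add, LinearMap.add_apply, LinearMap.add_apply, hp, hq, map_add]
  | monomial n a =>
    rw [aeval_monomial, aeval_monomial, Module.End.mul_apply, Module.End.mul_apply, Module.algebraMap_end_apply,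
      Module.algebraMap_end_apply, hpow, map_smul]

/-- an operator irreducible on `U`: a polynomial in it is zero or injective -/
theorem zero_or_inj (X : Module.End K V) {U : Submodule K V} (h : ∀ v ∈ U, X v ∈ U)
    (hirr : ∀ U' ≤ U, (∀ u ∈ U', X u ∈ U') → U' = ⊥ ∨ U' = U) (f : K[X]) :
    (∀ v ∈ U, aeval X f v = 0) ∨ ∀ v ∈ U, aeval X f v = 0 → v = 0 := by
  rcases hirr (U ⊓ LinearMap.ker (aeval X f)) inf_le_left (fun u hu => ⟨h u hu.1, by
      show X u ∈ LinearMap.ker (aeval X f)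
      rw [LinearMap.mem_ker]
      have h1 : aeval X f (X u) = X (aeval X f u) := by
        have h2 : aeval X f * X = X * aeval X f := by
          have h3 : aeval X (f * Polynomial.X) = aeval X (Polynomial.X * f) := by rw [mul_comm]
          rwa [map_mul, map_mul, aeval_X] at h3
        exact congrArg (fun t : Module.End K V => t u) h2
      rw [h1, LinearMap.mem_ker.1 hu.2, map_zero]⟩) with h1 | h1
  · right
    intro v hv hv0
    have h2 : v ∈ U ⊓ LinearMap.ker (aeval X f) := ⟨hv, LinearMap.mem_ker.2 hv0⟩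
    rw [h1] at h2
    exact (Submodule.mem_bot K).1 h2
  · left
    intro v hv
    rw [← h1] at hv
    exact LinearMap.mem_ker.1 hv.2

variable [FiniteDimensional K V] {V0 V1 V2 : Submodule K V}

/-- **The fusion bound.** -/
theorem fusion_le {n : ℕ} (hn1 : Module.finrank K V1 = n) (hn2 : Module.finrank K V2 = n) (hsup : V0 ⊔ V1 ⊔ V2 = ⊤)
    (P E : Set (V ≃ₗ[K] V)) (hEP : E ⊆ P) (hcomm : ∀ x ∈ P, ∀ y ∈ P, x * y = y * x)
    (hfix : ∀ x ∈ P, ∀ v ∈ V0, x v = v) (hinv1 : ∀ x ∈ P, ∀ v ∈ V1, x v ∈ V1) (hinv2 : ∀ x ∈ P, ∀ v ∈ V2, x v ∈ V2)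
    (hdir : ∀ v0 ∈ V0, ∀ v1 ∈ V1, ∀ v2 ∈ V2, v0 + v1 + v2 = 0 → v0 = 0 ∧ v1 = 0 ∧ v2 = 0)
    (hirr1 : ∀ x ∈ E, ∀ U ≤ V1, (∀ u ∈ U, x u ∈ U) → U = ⊥ ∨ U = V1)
    (hirr2 : ∀ x ∈ E, ∀ U ≤ V2, (∀ u ∈ U, x u ∈ U) → U = ⊥ ∨ U = V2)
    (hne1 : ∀ x ∈ E, ∃ v ∈ V1, x v ≠ v) (hne2 : ∀ x ∈ E, ∃ v ∈ V2, x v ≠ v)
    (hsep : ∀ x ∈ E, ∃ f : K[X], (∀ v ∈ V1, aeval (x : Module.End K V) f v = 0) ∧
      ∀ v ∈ V2, aeval (x : Module.End K V) f v = 0 → v = 0)
    {x : V ≃ₗ[K] V} (hx : x ∈ E) :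
    {x' | x' ∈ E ∧ ∃ g : V ≃ₗ[K] V, g * x * g⁻¹ = x'}.Finite ∧
      {x' | x' ∈ E ∧ ∃ g : V ≃ₗ[K] V, g * x * g⁻¹ = x'}.ncard ≤ 2 * n ^ 2 := by
  classical
  -- restrictions
  have hi1 : ∀ y ∈ P, ∀ v ∈ V1, (y : Module.End K V) v ∈ V1 := hinv1
  have hi2 : ∀ y ∈ P, ∀ v ∈ V2, (y : Module.End K V) v ∈ V2 := hinv2
  let r1 : P → Module.End K V1 := fun y => (y.1 : Module.End K V).restrict (hi1 y y.2)
  let r2 : P → Module.End K V2 := fun y => (y.1 : Module.End K V).restrict (hi2 y y.2)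
  have hxP := hEP hx
  obtain ⟨w1, hw1, hw1'⟩ := hne1 x hx
  obtain ⟨w2, hw2, hw2'⟩ := hne2 x hx
  have hnt1 : Nontrivial V1 := ⟨⟨⟨w1, hw1⟩, ⟨x w1, hinv1 x hxP w1 hw1⟩, fun h => hw1' (congrArg Subtype.val h).symm⟩⟩
  have hnt2 : Nontrivial V2 := ⟨⟨⟨w2, hw2⟩, ⟨x w2, hinv2 x hxP w2 hw2⟩, fun h => hw2' (congrArg Subtype.val h).symm⟩⟩
  let f1 : K[X] := minpoly K (r1 ⟨x, hxP⟩)
  let f2 : K[X] := minpoly K (r2 ⟨x, hxP⟩)
  have hf1 : f1 ≠ 0 := minpoly.ne_zero (Algebra.IsIntegral.isIntegral _)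
  have hf2 : f2 ≠ 0 := minpoly.ne_zero (Algebra.IsIntegral.isIntegral _)
  have hd1 : f1.natDegree ≤ n := by
    rw [← hn1, ← LinearMap.charpoly_natDegree (r1 ⟨x, hxP⟩)]
    exact Polynomial.natDegree_le_of_dvd (LinearMap.minpoly_dvd_charpoly _) (LinearMap.charpoly_monic _).ne_zero
  have hd2 : f2.natDegree ≤ n := by
    rw [← hn2, ← LinearMap.charpoly_natDegree (r2 ⟨x, hxP⟩)]
    exact Polynomial.natDegree_le_of_dvd (LinearMap.minpoly_dvd_charpoly _) (LinearMap.charpoly_monic _).ne_zero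
  have hv1 : ∀ v ∈ V1, aeval (x : Module.End K V) f1 v = 0 := by
    intro v hv
    have h1 : aeval (r1 ⟨x, hxP⟩) f1 = 0 := minpoly.aeval _ _
    have h2 := coe_aeval_restrict (x : Module.End K V) (hi1 x hxP) f1 ⟨v, hv⟩
    rw [← h2]
    have h3 : aeval ((x : Module.End K V).restrict (hi1 x hxP)) f1 = 0 := h1
    rw [h3]
    rfl
  have hv2 : ∀ v ∈ V2, aeval (x : Module.End K V) f2 v = 0 := by
    intro v hv
    have h1 : aeval (r2 ⟨x, hxP⟩) f2 = 0 := minpoly.aeval _ _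
    have h2 := coe_aeval_restrict (x : Module.End K V) (hi2 x hxP) f2 ⟨v, hv⟩
    rw [← h2]
    have h3 : aeval ((x : Module.End K V).restrict (hi2 x hxP)) f2 = 0 := h1
    rw [h3]
    rfl
  -- a polynomial vanishing at `x` on `V_i` with root one: impossible for the minimal polynomials
  have hone : ∀ (U : Submodule K V) (hU : ∀ v ∈ U, (x : Module.End K V) v ∈ U)
      (_ : ∀ U' ≤ U, (∀ u ∈ U', x u ∈ U') → U' = ⊥ ∨ U' = U) (_ : ∃ v ∈ U, x v ≠ v),
      (minpoly K ((x : Module.End K V).restrict hU)).eval 1 ≠ 0 := by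
    intro U hU hirr ⟨w, hw, hw'⟩ h1
    have h2 : Module.End.HasEigenvalue ((x : Module.End K V).restrict hU) 1 :=
      Module.End.hasEigenvalue_of_isRoot h1
    obtain ⟨v, hv⟩ := h2.exists_hasEigenvector
    have hv1 : x (v : V) = v := by
      have h3 := hv.apply_eq_smul
      rw [one_smul] at h3
      exact congrArg Subtype.val h3
    let U' : Submodule K V := U ⊓ LinearMap.ker ((x : Module.End K V) - 1)
    have hmem : ∀ u, u ∈ U' ↔ u ∈ U ∧ x u = u := by
      intro u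
      rw [Submodule.mem_inf, LinearMap.mem_ker, LinearMap.sub_apply, sub_eq_zero]
      rfl
    rcases hirr U' inf_le_left (fun u hu => by
      rw [hmem] at hu ⊢
      rw [hu.2]
      exact hu) with h3 | h3
    · have h4 : (v : V) ∈ U' := (hmem _).2 ⟨v.2, hv1⟩
      rw [h3] at h4
      exact hv.2 (Subtype.ext ((Submodule.mem_bot K).1 h4))
    · have h4 : w ∈ U' := by rw [h3]; exact hw
      exact hw' ((hmem _).1 h4).2
  have he1 : f1.eval 1 ≠ 0 := hone V1 (hi1 x hxP) (hirr1 x hx) ⟨w1, hw1, hw1'⟩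
  have he2 : f2.eval 1 ≠ 0 := hone V2 (hi2 x hxP) (hirr2 x hx) ⟨w2, hw2, hw2'⟩
  -- on `V0`
  have h0 : ∀ y ∈ P, ∀ (f : K[X]), ∀ v ∈ V0, aeval (y : Module.End K V) f v = f.eval 1 • v := by
    intro y hy f v hv
    induction f using Polynomial.induction_on' with
    | add p q hp hq => rw [map_add, LinearMap.add_apply, hp, hq, eval_add, add_smul]
    | monomial m a =>
      have h1 : ∀ m : ℕ, ((y : Module.End K V) ^ m) v = v := by
        intro m
        induction m with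
        | zero => rfl
        | succ m ih =>
          rw [pow_succ, Module.End.mul_apply]
          show ((y : Module.End K V) ^ m) (y v) = v
          rw [hfix y hy v hv, ih]
      rw [aeval_monomial, Module.End.mul_apply, Module.algebraMap_end_apply, h1, eval_monomial, one_pow, mul_one]
  -- the dichotomy
  have hdich : ∀ y ∈ E, ∀ f : K[X], f.eval 1 ≠ 0 → (∃ v : V, v ≠ 0 ∧ aeval (y : Module.End K V) f v = 0) →
      (∀ v ∈ V1, aeval (y : Module.End K V) f v = 0) ∨ ∀ v ∈ V2, aeval (y : Module.End K V) f v = 0 := by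
    intro y hy f hf1 ⟨v, hv, hfv⟩
    rcases zero_or_inj (y : Module.End K V) (hi1 y (hEP hy)) (hirr1 y hy) f with h1 | h1
    · exact Or.inl h1
    rcases zero_or_inj (y : Module.End K V) (hi2 y (hEP hy)) (hirr2 y hy) f with h2 | h2
    · exact Or.inr h2
    exfalso
    have hvt : v ∈ V0 ⊔ V1 ⊔ V2 := by rw [hsup]; exact Submodule.mem_top
    obtain ⟨v', hv', v2, hv2, rfl⟩ := Submodule.mem_sup.1 hvt
    obtain ⟨v0, hv0, v1, hv1, rfl⟩ := Submodule.mem_sup.1 hv'
    rw [map_add, map_add, h0 y (hEP hy) f v0 hv0] at hfv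
    obtain ⟨e0, e1, e2⟩ := hdir _ (V0.smul_mem _ hv0) _ (aeval_mem _ (hi1 y (hEP hy)) f hv1) _
      (aeval_mem _ (hi2 y (hEP hy)) f hv2) hfv
    apply hv
    rw [h1 v1 hv1 e1, h2 v2 hv2 e2, (smul_eq_zero.1 e0).resolve_left hf1, add_zero, add_zero]
  -- no common factor
  obtain ⟨f, hfv1, hfv2⟩ := hsep x hx
  have hf1f : f1 ∣ f := by
    refine minpoly.dvd _ _ ?_
    ext v
    rw [LinearMap.zero_apply]
    exact (coe_aeval_restrict (x : Module.End K V) (hi1 x hxP) f v).trans (hfv1 v v.2)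
  have hcop : ∀ m : K[X], m ∣ f1 → m ∣ f2 → IsUnit m := by
    intro m hm1 hm2
    by_contra hu
    obtain ⟨k, hk⟩ := hm2
    -- `k` does not vanish at `x` on `V2`
    have hk0 : k ≠ 0 := by
      rintro rfl
      rw [mul_zero] at hk
      exact hf2 hk
    have h1 : ¬ ∀ v ∈ V2, aeval (x : Module.End K V) k v = 0 := by
      intro h
      have h2 : f2 ∣ k := by
        refine minpoly.dvd _ _ ?_
        ext v
        rw [LinearMap.zero_apply]
        exact (coe_aeval_restrict (x : Module.End K V) (hi2 x hxP) k v).trans (h v v.2)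
      have h3 : f2 ∣ f2 := dvd_refl _
      obtain ⟨l, hl⟩ := h2
      apply hu
      have h4 : k * 1 = k * (m * l) := by
        calc k * 1 = k := mul_one k
          _ = f2 * l := hl
          _ = k * (m * l) := by rw [hk]; ring
      exact IsUnit.of_mul_eq_one _ (mul_left_cancel₀ hk0 h4).symm
    push Not at h1
    obtain ⟨v, hv, hv0⟩ := h1
    have h2 : aeval (x : Module.End K V) m (aeval (x : Module.End K V) k v) = 0 := by
      rw [← Module.End.mul_apply, ← map_mul, ← hk]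
      exact hv2 v hv
    apply hv0
    refine hfv2 _ (aeval_mem _ (hi2 x hxP) k hv) ?_
    obtain ⟨l, hl⟩ := hm1.trans hf1f
    rw [hl, mul_comm, map_mul, Module.End.mul_apply, h2, map_zero]
  -- the classes
  let S12 : Set (V ≃ₗ[K] V) := {y | y ∈ P ∧ (∀ v ∈ V1, aeval (y : Module.End K V) f1 v = 0) ∧
    ∀ v ∈ V2, aeval (y : Module.End K V) f2 v = 0}
  let S21 : Set (V ≃ₗ[K] V) := {y | y ∈ P ∧ (∀ v ∈ V1, aeval (y : Module.End K V) f2 v = 0) ∧
    ∀ v ∈ V2, aeval (y : Module.End K V) f1 v = 0}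
  have hsub : {x' | x' ∈ E ∧ ∃ g : V ≃ₗ[K] V, g * x * g⁻¹ = x'} ⊆ S12 ∪ S21 := by
    rintro y ⟨hy, g, hg⟩
    have hg1 : ∀ (f : K[X]) (v : V), aeval (x : Module.End K V) f v = 0 → aeval (y : Module.End K V) f (g v) = 0 := by
      intro f v hv
      have h1 := aeval_conj x g f (g v)
      rw [hg] at h1
      have h2 : g⁻¹ (g v) = v := g.symm_apply_apply v
      rw [h1, h2, hv, map_zero]
    have hw10 : w1 ≠ 0 := by
      rintro rfl
      exact hw1' (map_zero x)
    have hw20 : w2 ≠ 0 := by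
      rintro rfl
      exact hw2' (map_zero x)
    have k1 := hdich y hy f1 he1 ⟨g w1, (map_ne_zero_iff g g.injective).2 hw10, hg1 f1 w1 (hv1 w1 hw1)⟩
    have k2 := hdich y hy f2 he2 ⟨g w2, (map_ne_zero_iff g g.injective).2 hw20, hg1 f2 w2 (hv2 w2 hw2)⟩
    have hyP := hEP hy
    have hbad : ∀ (U : Submodule K V) (_ : ∀ v ∈ U, (y : Module.End K V) v ∈ U) (_ : Nontrivial U),
        (∀ v ∈ U, aeval (y : Module.End K V) f1 v = 0) → (∀ v ∈ U, aeval (y : Module.End K V) f2 v = 0) → False := by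
      intro U hU hnt h1 h2
      have h3 : minpoly K ((y : Module.End K V).restrict hU) ∣ f1 := by
        refine minpoly.dvd _ _ ?_
        ext v
        rw [LinearMap.zero_apply]
        exact (coe_aeval_restrict (y : Module.End K V) hU f1 v).trans (h1 v v.2)
      have h4 : minpoly K ((y : Module.End K V).restrict hU) ∣ f2 := by
        refine minpoly.dvd _ _ ?_
        ext v
        rw [LinearMap.zero_apply]
        exact (coe_aeval_restrict (y : Module.End K V) hU f2 v).trans (h2 v v.2)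
      exact minpoly.not_isUnit K _ (hcop _ h3 h4)
    rcases k1 with k1 | k1
    · rcases k2 with k2 | k2
      · exact (hbad V1 (hi1 y hyP) hnt1 k1 k2).elim
      · exact Or.inl ⟨hyP, k1, k2⟩
    · rcases k2 with k2 | k2
      · exact Or.inr ⟨hyP, k2, k1⟩
      · exact (hbad V2 (hi2 y hyP) hnt2 k1 k2).elim
  -- counting
  have hA1 : ∀ h : K[X], h ≠ 0 → (Set.range r1 ∩ {a | aeval a h = 0}).Finite ∧
      (Set.range r1 ∩ {a | aeval a h = 0}).ncard ≤ h.natDegree := by
    intro h hh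
    refine card_roots_le _ ?_ ?_ h hh
    · rintro _ ⟨a, rfl⟩ _ ⟨b, rfl⟩
      ext v
      exact congrArg (fun t : V ≃ₗ[K] V => t (v : V)) (hcomm a a.2 b b.2)
    · intro U hU
      have h1 := hirr1 x hx (U.map V1.subtype) (Submodule.map_subtype_le _ _) (by
        rintro _ ⟨u, hu, rfl⟩
        exact ⟨r1 ⟨x, hxP⟩ u, hU _ ⟨_, rfl⟩ u hu, rfl⟩)
      rcases h1 with h1 | h1
      · left
        exact Submodule.map_injective_of_injective V1.injective_subtype (h1.trans (Submodule.map_bot _).symm)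
      · right
        rw [eq_top_iff]
        intro v _
        have h2 : (v : V) ∈ U.map V1.subtype := by rw [h1]; exact v.2
        obtain ⟨u, hu, hu'⟩ := h2
        have h3 : u = v := Subtype.ext hu'
        exact h3 ▸ hu
  have hA2 : ∀ h : K[X], h ≠ 0 → (Set.range r2 ∩ {a | aeval a h = 0}).Finite ∧
      (Set.range r2 ∩ {a | aeval a h = 0}).ncard ≤ h.natDegree := by
    intro h hh
    refine card_roots_le _ ?_ ?_ h hh
    · rintro _ ⟨a, rfl⟩ _ ⟨b, rfl⟩
      ext v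
      exact congrArg (fun t : V ≃ₗ[K] V => t (v : V)) (hcomm a a.2 b b.2)
    · intro U hU
      have h1 := hirr2 x hx (U.map V2.subtype) (Submodule.map_subtype_le _ _) (by
        rintro _ ⟨u, hu, rfl⟩
        exact ⟨r2 ⟨x, hxP⟩ u, hU _ ⟨_, rfl⟩ u hu, rfl⟩)
      rcases h1 with h1 | h1
      · left
        exact Submodule.map_injective_of_injective V2.injective_subtype (h1.trans (Submodule.map_bot _).symm)
      · right
        rw [eq_top_iff]
        intro v _
        have h2 : (v : V) ∈ U.map V2.subtype := by rw [h1]; exact v.2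
        obtain ⟨u, hu, hu'⟩ := h2
        have h3 : u = v := Subtype.ext hu'
        exact h3 ▸ hu
  have hcount : ∀ h k : K[X], h ≠ 0 → k ≠ 0 → h.natDegree ≤ n → k.natDegree ≤ n →
      {y | y ∈ P ∧ (∀ v ∈ V1, aeval (y : Module.End K V) h v = 0) ∧ ∀ v ∈ V2, aeval (y : Module.End K V) k v = 0}.Finite ∧
      {y | y ∈ P ∧ (∀ v ∈ V1, aeval (y : Module.End K V) h v = 0) ∧
        ∀ v ∈ V2, aeval (y : Module.End K V) k v = 0}.ncard ≤ n ^ 2 := by
    intro h k hh hk hdh hdk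
    obtain ⟨q1, q2⟩ := hA1 h hh
    obtain ⟨q3, q4⟩ := hA2 k hk
    let T : Set (Module.End K V1 × Module.End K V2) :=
      (Set.range r1 ∩ {a | aeval a h = 0}) ×ˢ (Set.range r2 ∩ {a | aeval a k = 0})
    have hT : T.Finite := q1.prod q3
    have hTc : T.ncard ≤ n ^ 2 := by
      rw [Set.ncard_prod, pow_two]
      exact Nat.mul_le_mul (q2.trans hdh) (q4.trans hdk)
    let F : (V ≃ₗ[K] V) → Module.End K V1 × Module.End K V2 := fun y =>
      if hy : y ∈ P then (r1 ⟨y, hy⟩, r2 ⟨y, hy⟩) else (0, 0)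
    have hmaps : ∀ y ∈ {y | y ∈ P ∧ (∀ v ∈ V1, aeval (y : Module.End K V) h v = 0) ∧
        ∀ v ∈ V2, aeval (y : Module.End K V) k v = 0}, F y ∈ T := by
      rintro y ⟨hy, h1, h2⟩
      have e : F y = (r1 ⟨y, hy⟩, r2 ⟨y, hy⟩) := dif_pos hy
      rw [e]
      refine ⟨⟨⟨_, rfl⟩, ?_⟩, ⟨⟨_, rfl⟩, ?_⟩⟩
      · show aeval (r1 ⟨y, hy⟩) h = 0
        ext v
        rw [LinearMap.zero_apply]
        exact (coe_aeval_restrict (y : Module.End K V) (hi1 y hy) h v).trans (h1 v v.2)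
      · show aeval (r2 ⟨y, hy⟩) k = 0
        ext v
        rw [LinearMap.zero_apply]
        exact (coe_aeval_restrict (y : Module.End K V) (hi2 y hy) k v).trans (h2 v v.2)
    have hinj : Set.InjOn F {y | y ∈ P ∧ (∀ v ∈ V1, aeval (y : Module.End K V) h v = 0) ∧
        ∀ v ∈ V2, aeval (y : Module.End K V) k v = 0} := by
      rintro y ⟨hy, -, -⟩ z ⟨hz, -, -⟩ hyz
      have e1 : F y = (r1 ⟨y, hy⟩, r2 ⟨y, hy⟩) := dif_pos hy
      have e2 : F z = (r1 ⟨z, hz⟩, r2 ⟨z, hz⟩) := dif_pos hz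
      rw [e1, e2, Prod.mk.injEq] at hyz
      obtain ⟨h1, h2⟩ := hyz
      ext v
      have hvt : v ∈ V0 ⊔ V1 ⊔ V2 := by rw [hsup]; exact Submodule.mem_top
      obtain ⟨v', hv', v2, hv2, rfl⟩ := Submodule.mem_sup.1 hvt
      obtain ⟨v0, hv0, v1, hv1, rfl⟩ := Submodule.mem_sup.1 hv'
      have e3 : y v1 = z v1 := congrArg Subtype.val (congrArg (fun t : Module.End K V1 => t ⟨v1, hv1⟩) h1)
      have e4 : y v2 = z v2 := congrArg Subtype.val (congrArg (fun t : Module.End K V2 => t ⟨v2, hv2⟩) h2)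
      rw [map_add, map_add, map_add, map_add, hfix y hy v0 hv0, hfix z hz v0 hv0, e3, e4]
    exact ⟨Set.Finite.of_injOn hmaps hinj hT, (Set.ncard_le_ncard_of_injOn F hmaps hinj hT).trans hTc⟩
  obtain ⟨a1, a2⟩ := hcount f1 f2 hf1 hf2 hd1 hd2
  obtain ⟨a3, a4⟩ := hcount f2 f1 hf2 hf1 hd2 hd1
  have hfin : (S12 ∪ S21).Finite := a1.union a3
  refine ⟨hfin.subset hsub, (Set.ncard_le_ncard hsub hfin).trans ((Set.ncard_union_le _ _).trans ?_)⟩
  have h5 : S12.ncard + S21.ncard ≤ n ^ 2 + n ^ 2 := Nat.add_le_add a2 a4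
  omega

end Cfsg.Agent.H637.HT
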